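import Mathlib
import Cfsg.Agent.Lib.Helper61.QB.DefsG

/-! FARM S4125, piece P0. -/

set_option autoImplicit false

namespace Cfsg.Agent.Lib.Helper86.QB

open Cfsg.Agent.Lib.Helper61.QB

universe u

variable {G : Type u} [Group G] [Finite G] {q : ℕ} [Fact q.Prime]

/-- a subgroup of index prime to `q` contains a Sylow `q`-subgroup. -/
theorem exists_sylow_le_of_coprime_index (C : Subgroup G) (h : C.index.Coprime q) :
    ∃ Q1 : Sylow q G, (Q1 : Subgroup G) ≤ C := by
  have hq : q.Prime := Fact.out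
  obtain ⟨S⟩ : Nonempty (Sylow q C) := inferInstance
  have h1 : IsPGroup q ((S : Subgroup C).map C.subtype) := S.2.map _
  have h2 : ¬ q ∣ ((S : Subgroup C).map C.subtype).index := by
    rw [Subgroup.index_map_subtype]
    intro hd
    rcases (Nat.Prime.dvd_mul hq).1 hd with hd | hd
    · exact S.not_dvd_index hd
    · exact hq.one_lt.ne' (Nat.eq_one_of_dvd_coprimes h hd dvd_rfl)
  refine ⟨h1.toSylow h2, ?_⟩
  intro z hz
  have hz' : z ∈ (S : Subgroup C).map C.subtype := hz
  obtain ⟨w, _, rfl⟩ := hz'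
  exact w.2

/-- [P0] -/
theorem exists_conj_commute (x y : G) (hx : (idx x).Coprime q) (hy : IsQ q y) :
    ∃ g : G, Commute x (g * y * g⁻¹) := by
  obtain ⟨Q1, hQ1⟩ := exists_sylow_le_of_coprime_index (q := q)
    (Subgroup.centralizer ({x} : Set G)) hx
  obtain ⟨k, hk⟩ := hy
  have hz : IsPGroup q (Subgroup.zpowers y) := by
    apply IsPGroup.of_card (n := k)
    rw [Nat.card_zpowers, hk]
  obtain ⟨Q2, hQ2⟩ := hz.exists_le_sylow
  obtain ⟨g, hg⟩ := MulAction.exists_smul_eq G Q2 Q1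
  refine ⟨g, ?_⟩
  have hy2 : y ∈ (Q2 : Subgroup G) := hQ2 (Subgroup.mem_zpowers y)
  have h3 : g * y * g⁻¹ ∈ (Q1 : Subgroup G) := by
    rw [← hg, Sylow.smul_def, Sylow.pointwise_smul_def]
    have := Subgroup.smul_mem_pointwise_smul y (MulAut.conj g) (Q2 : Subgroup G) hy2
    simpa [MulAut.smul_def] using this
  have h4 := hQ1 h3
  rw [Subgroup.mem_centralizer_singleton_iff] at h4
  exact h4.symm

end Cfsg.Agent.Lib.Helper86.QB
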