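import Mathlib
import Cfsg.Agent.Lib.Helper61.QB.DefsG
import Cfsg.Agent.Lib.Helper59.TopTwo

/-! FARM S4125, piece P2. -/

set_option autoImplicit false

namespace Cfsg.Agent.Lib.Helper86.QB

open Cfsg.Agent.Lib.Helper61.QB

universe u

variable {G : Type u} [Group G] [Finite G]

/-- [P2] -/
theorem card_diffSub_dvd (x y : G) (hxy : Commute x y) (h : (idx x).Coprime (idx y))
    (hu : idx (x * y) = idx y) : Nat.card (diffSub x) ∣ idx y := by
  obtain ⟨L, hLn, hLc, -, hL⟩ := Cfsg.Agent.Lib.Helper59.TopTwo.exists_stab y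
  have h1 : ∀ g : G, x⁻¹ * (g * x * g⁻¹) ∈ L := hL x h (le_of_eq hu)
  have hle : diffSub x ≤ L := by
    unfold diffSub
    rw [Subgroup.closure_le]
    rintro d ⟨g, k, rfl⟩
    have h2 := hLn.conj_mem _ (h1 (g⁻¹ * k)) g
    have e : g * (x⁻¹ * (g⁻¹ * k * x * (g⁻¹ * k)⁻¹)) * g⁻¹ = (g * x * g⁻¹)⁻¹ * (k * x * k⁻¹) := by
      group
    rw [e] at h2
    exact h2
  exact (Subgroup.card_dvd_of_le hle).trans hLc

end Cfsg.Agent.Lib.Helper86.QB
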