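import Mathlib
import Cfsg.Agent.Lib.Helper61.QB.DefsG
import Cfsg.Agent.Lib.Helper69.CoprimeIndex

/-! FARM S4125, piece P4. -/

set_option autoImplicit false

namespace Cfsg.Agent.Lib.Helper86.QB

open Cfsg.Agent.Lib.Helper61.QB

universe u

variable {G : Type u} [Group G] [Finite G]

theorem index_inf_of_coprime' (A B : Subgroup G) (h : A.index.Coprime B.index) :
    (A ⊓ B).index = A.index * B.index := by
  have e1 : (A ⊓ B).relIndex B * B.index = (A ⊓ B).index :=
    Subgroup.relIndex_mul_index inf_le_right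
  rw [Subgroup.inf_relIndex_right, Cfsg.Agent.Lib.Helper69.relIndex_eq_index_of_coprime A B h] at e1
  exact e1.symm

/-- [P4] -/
theorem index_mul_eq (x y : G) {r s t a b c : ℕ} (hr : r.Prime) (hs : s.Prime) (ht : t.Prime)
    (hrs : r ≠ s) (hx : idx x = r ^ a) (hy : idx y = s ^ b) (hu : idx (x * y) = t ^ c) :
    idx (x * y) = idx x ∨ idx (x * y) = idx y := by
  have e1 : Subgroup.centralizer ({x * y} : Set G) ⊓ Subgroup.centralizer ({x} : Set G)
      = Subgroup.centralizer ({x} : Set G) ⊓ Subgroup.centralizer ({y} : Set G) := by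
    ext g
    simp only [Subgroup.mem_inf, Subgroup.mem_centralizer_singleton_iff]
    constructor
    · rintro ⟨h1, h2⟩
      refine ⟨h2, ?_⟩
      have : x * (g * y) = x * (y * g) := by
        rw [← mul_assoc, ← h2, mul_assoc, ← mul_assoc x y g, ← h1]
      exact mul_left_cancel this
    · rintro ⟨h1, h2⟩
      refine ⟨?_, h1⟩
      rw [← mul_assoc, h1, mul_assoc, h2, mul_assoc]
  have e2 : Subgroup.centralizer ({x * y} : Set G) ⊓ Subgroup.centralizer ({y} : Set G)
      = Subgroup.centralizer ({x} : Set G) ⊓ Subgroup.centralizer ({y} : Set G) := by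
    ext g
    simp only [Subgroup.mem_inf, Subgroup.mem_centralizer_singleton_iff]
    constructor
    · rintro ⟨h1, h2⟩
      refine ⟨?_, h2⟩
      have : (g * x) * y = (x * g) * y := by
        rw [mul_assoc, h1, mul_assoc, mul_assoc, h2]
      exact mul_right_cancel this
    · rintro ⟨h1, h2⟩
      refine ⟨?_, h2⟩
      rw [← mul_assoc, h1, mul_assoc, h2, mul_assoc]
  have hxy : (Subgroup.centralizer ({x} : Set G) ⊓ Subgroup.centralizer ({y} : Set G)).index
      = r ^ a * s ^ b := by
    rw [index_inf_of_coprime', ← hx, ← hy]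
    show (idx x).Coprime (idx y)
    rw [hx, hy]
    exact Nat.Coprime.pow _ _ ((Nat.coprime_primes hr hs).2 hrs)
  by_cases htr : t = r
  · left
    have hts : t ≠ s := by rw [htr]; exact hrs
    have h1 : (Subgroup.centralizer ({x * y} : Set G) ⊓ Subgroup.centralizer ({y} : Set G)).index
        = t ^ c * s ^ b := by
      rw [index_inf_of_coprime', ← hu, ← hy]
      show (idx (x * y)).Coprime (idx y)
      rw [hu, hy]
      exact Nat.Coprime.pow _ _ ((Nat.coprime_primes ht hs).2 hts)
    rw [e2, hxy] at h1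
    rw [hu, hx]
    exact (Nat.eq_of_mul_eq_mul_right (pow_pos hs.pos b) h1).symm
  · right
    have h1 : (Subgroup.centralizer ({x * y} : Set G) ⊓ Subgroup.centralizer ({x} : Set G)).index
        = t ^ c * r ^ a := by
      rw [index_inf_of_coprime', ← hu, ← hx]
      show (idx (x * y)).Coprime (idx x)
      rw [hu, hx]
      exact Nat.Coprime.pow _ _ ((Nat.coprime_primes ht hr).2 htr)
    rw [e1, hxy, mul_comm (t ^ c)] at h1
    rw [hu, hy]
    exact (Nat.eq_of_mul_eq_mul_left (pow_pos hr.pos a) h1).symm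

end Cfsg.Agent.Lib.Helper86.QB
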